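import Cfsg.Agent.H91.OrderType.Profile
import Mathlib

/-!
The solvable building blocks (machine-written data; every value is checked by the kernel).
-/

namespace Cfsg.Agent.H91

/-- An automorphism of a commutative group written additively, from mutually inverse maps. -/
def autOf {V : Type*} [AddCommGroup V] (f g : V → V) (h₁ : ∀ v, g (f v) = v)
    (h₂ : ∀ v, f (g v) = v) (h₃ : ∀ v w, f (v + w) = f v + f w) : MulAut (Multiplicative V) :=
  AddEquiv.toMultiplicative { toFun := f, invFun := g, left_inv := h₁, right_inv := h₂, map_add' := h₃ }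

/-- An automorphism of `ZMod 3`. -/
def aut3_1_2 : MulAut (Multiplicative (ZMod 3)) :=
  autOf (fun v => 2 * v) (fun v => 2 * v) (by decide +kernel) (by decide +kernel) (by decide +kernel)

/-- An automorphism of `ZMod 7`. -/
def aut7_1_2 : MulAut (Multiplicative (ZMod 7)) :=
  autOf (fun v => 6 * v) (fun v => 6 * v) (by decide +kernel) (by decide +kernel) (by decide +kernel)

/-- An automorphism of `ZMod 3 × ZMod 3`. -/
def aut9_2_2 : MulAut (Multiplicative (ZMod 3 × ZMod 3)) :=
  autOf (fun v => (2 * v.1, 2 * v.2)) (fun v => (2 * v.1, 2 * v.2)) (by decide +kernel) (by decide +kernel) (by decide +kernel)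

/-- An automorphism of `ZMod 7`. -/
def aut7_1_3 : MulAut (Multiplicative (ZMod 7)) :=
  autOf (fun v => 2 * v) (fun v => 4 * v) (by decide +kernel) (by decide +kernel) (by decide +kernel)

/-- An automorphism of `ZMod 3 × ZMod 3`. -/
def aut9_2_4 : MulAut (Multiplicative (ZMod 3 × ZMod 3)) :=
  autOf (fun v => (-v.2, v.1)) (fun v => (v.2, -v.1)) (by decide +kernel) (by decide +kernel) (by decide +kernel)

/-- An automorphism of `ZMod 7 × ZMod 7`. -/
def aut49_2_4 : MulAut (Multiplicative (ZMod 7 × ZMod 7)) :=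
  autOf (fun v => (-v.2, v.1)) (fun v => (v.2, -v.1)) (by decide +kernel) (by decide +kernel) (by decide +kernel)

/-- An automorphism of `ZMod 7 × ZMod 7`. -/
def aut49_2_2 : MulAut (Multiplicative (ZMod 7 × ZMod 7)) :=
  autOf (fun v => (6 * v.1, 6 * v.2)) (fun v => (6 * v.1, 6 * v.2)) (by decide +kernel) (by decide +kernel) (by decide +kernel)

/-- An automorphism of `ZMod 7`. -/
def aut7_1_6 : MulAut (Multiplicative (ZMod 7)) :=
  autOf (fun v => 3 * v) (fun v => 5 * v) (by decide +kernel) (by decide +kernel) (by decide +kernel)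

/-- An automorphism of `ZMod 7 × ZMod 7`. -/
def aut49_2_6 : MulAut (Multiplicative (ZMod 7 × ZMod 7)) :=
  autOf (fun v => (3 * v.1, 3 * v.2)) (fun v => (5 * v.1, 5 * v.2)) (by decide +kernel) (by decide +kernel) (by decide +kernel)

/-- An automorphism of `ZMod 7 × ZMod 7`. -/
def aut49_2_12 : MulAut (Multiplicative (ZMod 7 × ZMod 7)) :=
  autOf (fun v => (-(2 * v.2), 2 * v.1)) (fun v => (4 * v.2, -(4 * v.1))) (by decide +kernel) (by decide +kernel) (by decide +kernel)

/-- An automorphism of `ZMod 7 × ZMod 7`. -/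
def aut49_2_3 : MulAut (Multiplicative (ZMod 7 × ZMod 7)) :=
  autOf (fun v => (2 * v.1, 2 * v.2)) (fun v => (4 * v.1, 4 * v.2)) (by decide +kernel) (by decide +kernel) (by decide +kernel)

/-- An automorphism of `ZMod 2 × ZMod 2`. -/
def aut4_2_3 : MulAut (Multiplicative (ZMod 2 × ZMod 2)) :=
  autOf (fun v => (v.2, v.1 + v.2)) (fun v => (v.1 + v.2, v.1)) (by decide +kernel) (by decide +kernel) (by decide +kernel)

/-- Action number 0 of block `b0`. -/
def b0_act0 : Multiplicative (ZMod 2) →* MulAut (Multiplicative (ZMod 3)) :=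
  cycHom 2 aut3_1_2 (MulEquiv.ext (by decide +kernel))

theorem b0_tof0 : TrivOrFpf b0_act0 := by
  unfold TrivOrFpf; decide +kernel

/-- Block group `b0`, of order 6. -/
abbrev B0 : Type := (Multiplicative (ZMod 3)) ⋊[b0_act0] (Multiplicative (ZMod 2))

theorem b0_profile : Profile B0 [1, 4, 3, 4, 6, 1, 6, 4, 3, 4, 6, 6] := by
  refine profile_of_values (N := 6) ?_ ?_ ?_
  · rw [funext (powCount_block₁ b0_act0 b0_tof0)]; decide +kernel
  · simp [SemidirectProduct.card, Nat.card_eq_fintype_card]
  · rw [powCount_block₁ b0_act0 b0_tof0]; decide +kernel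

theorem b0_solvable : Group.IsSolvable B0 :=
  isSolvable_semidirect _ inferInstance inferInstance

/-- Action number 0 of block `b1`. -/
def b1_act0 : Multiplicative (ZMod 2) →* MulAut (Multiplicative (ZMod 3)) :=
  cycHom 2 aut3_1_2 (MulEquiv.ext (by decide +kernel))

theorem b1_tof0 : TrivOrFpf b1_act0 := by
  unfold TrivOrFpf; decide +kernel

/-- Action number 1 of block `b1`. -/
def b1_act1 : Multiplicative (ZMod 2) →* MulAut (Multiplicative (ZMod 7)) :=
  cycHom 2 aut7_1_2 (MulEquiv.ext (by decide +kernel))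

theorem b1_tof1 : TrivOrFpf b1_act1 := by
  unfold TrivOrFpf; decide +kernel

/-- Block group `b1`, of order 42. -/
abbrev B1 : Type := (Multiplicative (ZMod 3) × Multiplicative (ZMod 7)) ⋊[(pairHom b1_act0 b1_act1)] (Multiplicative (ZMod 2))

theorem b1_profile : Profile B1 [1, 22, 3, 22, 24, 7, 24, 28, 21, 28, 42, 42] := by
  refine profile_of_values (N := 42) ?_ ?_ ?_
  · rw [funext (powCount_block₂ b1_act0 b1_act1 b1_tof0 b1_tof1)]; decide +kernel
  · simp [SemidirectProduct.card, Nat.card_eq_fintype_card]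
  · rw [powCount_block₂ b1_act0 b1_act1 b1_tof0 b1_tof1]; decide +kernel

theorem b1_solvable : Group.IsSolvable B1 :=
  isSolvable_semidirect _ inferInstance inferInstance

/-- Action number 0 of block `b2`. -/
def b2_act0 : Multiplicative (ZMod 2) →* MulAut (Multiplicative (ZMod 3 × ZMod 3)) :=
  cycHom 2 aut9_2_2 (MulEquiv.ext (by decide +kernel))

theorem b2_tof0 : TrivOrFpf b2_act0 := by
  unfold TrivOrFpf; decide +kernel

/-- Block group `b2`, of order 18. -/
abbrev B2 : Type := (Multiplicative (ZMod 3 × ZMod 3)) ⋊[b2_act0] (Multiplicative (ZMod 2))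

theorem b2_profile : Profile B2 [1, 10, 9, 10, 18, 1, 18, 10, 9, 10, 18, 18] := by
  refine profile_of_values (N := 18) ?_ ?_ ?_
  · rw [funext (powCount_block₁ b2_act0 b2_tof0)]; decide +kernel
  · simp [SemidirectProduct.card, Nat.card_eq_fintype_card]
  · rw [powCount_block₁ b2_act0 b2_tof0]; decide +kernel

theorem b2_solvable : Group.IsSolvable B2 :=
  isSolvable_semidirect _ inferInstance inferInstance

/-- Action number 0 of block `b3`. -/
def b3_act0 : Multiplicative (ZMod 2) →* MulAut (Multiplicative (ZMod 3 × ZMod 3)) :=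
  cycHom 2 aut9_2_2 (MulEquiv.ext (by decide +kernel))

theorem b3_tof0 : TrivOrFpf b3_act0 := by
  unfold TrivOrFpf; decide +kernel

/-- Action number 1 of block `b3`. -/
def b3_act1 : Multiplicative (ZMod 2) →* MulAut (Multiplicative (ZMod 7)) :=
  cycHom 2 aut7_1_2 (MulEquiv.ext (by decide +kernel))

theorem b3_tof1 : TrivOrFpf b3_act1 := by
  unfold TrivOrFpf; decide +kernel

/-- Block group `b3`, of order 126. -/
abbrev B3 : Type := (Multiplicative (ZMod 3 × ZMod 3) × Multiplicative (ZMod 7)) ⋊[(pairHom b3_act0 b3_act1)] (Multiplicative (ZMod 2))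

theorem b3_profile : Profile B3 [1, 64, 9, 64, 72, 7, 72, 70, 63, 70, 126, 126] := by
  refine profile_of_values (N := 126) ?_ ?_ ?_
  · rw [funext (powCount_block₂ b3_act0 b3_act1 b3_tof0 b3_tof1)]; decide +kernel
  · simp [SemidirectProduct.card, Nat.card_eq_fintype_card]
  · rw [powCount_block₂ b3_act0 b3_act1 b3_tof0 b3_tof1]; decide +kernel

theorem b3_solvable : Group.IsSolvable B3 :=
  isSolvable_semidirect _ inferInstance inferInstance

/-- Action number 0 of block `b4`. -/
def b4_act0 : Multiplicative (ZMod 3) →* MulAut (Multiplicative (ZMod 7)) :=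
  cycHom 3 aut7_1_3 (MulEquiv.ext (by decide +kernel))

theorem b4_tof0 : TrivOrFpf b4_act0 := by
  unfold TrivOrFpf; decide +kernel

/-- Block group `b4`, of order 21. -/
abbrev B4 : Type := (Multiplicative (ZMod 7)) ⋊[b4_act0] (Multiplicative (ZMod 3))

theorem b4_profile : Profile B4 [1, 1, 15, 1, 15, 7, 15, 7, 21, 7, 21, 21] := by
  refine profile_of_values (N := 21) ?_ ?_ ?_
  · rw [funext (powCount_block₁ b4_act0 b4_tof0)]; decide +kernel
  · simp [SemidirectProduct.card, Nat.card_eq_fintype_card]
  · rw [powCount_block₁ b4_act0 b4_tof0]; decide +kernel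

theorem b4_solvable : Group.IsSolvable B4 :=
  isSolvable_semidirect _ inferInstance inferInstance

/-- Action number 0 of block `b5`. -/
def b5_act0 : Multiplicative (ZMod 4) →* MulAut (Multiplicative (ZMod 3 × ZMod 3)) :=
  cycHom 4 aut9_2_4 (MulEquiv.ext (by decide +kernel))

theorem b5_tof0 : TrivOrFpf b5_act0 := by
  unfold TrivOrFpf; decide +kernel

/-- Action number 1 of block `b5`. -/
def b5_act1 : Multiplicative (ZMod 4) →* MulAut (Multiplicative (ZMod 3 × ZMod 3)) :=
  cycHom 4 aut9_2_2 (MulEquiv.ext (by decide +kernel))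

theorem b5_tof1 : TrivOrFpf b5_act1 := by
  unfold TrivOrFpf; decide +kernel

/-- Block group `b5`, of order 324. -/
abbrev B5 : Type := (Multiplicative (ZMod 3 × ZMod 3) × Multiplicative (ZMod 3 × ZMod 3)) ⋊[(pairHom b5_act0 b5_act1)] (Multiplicative (ZMod 4))

theorem b5_profile : Profile B5 [1, 10, 81, 172, 162, 1, 324, 10, 81, 172, 162, 324] := by
  refine profile_of_values (N := 324) ?_ ?_ ?_
  · rw [funext (powCount_block₂ b5_act0 b5_act1 b5_tof0 b5_tof1)]; decide +kernel
  · simp [SemidirectProduct.card, Nat.card_eq_fintype_card]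
  · rw [powCount_block₂ b5_act0 b5_act1 b5_tof0 b5_tof1]; decide +kernel

theorem b5_solvable : Group.IsSolvable B5 :=
  isSolvable_semidirect _ inferInstance inferInstance

/-- Action number 0 of block `b6`. -/
def b6_act0 : Multiplicative (ZMod 4) →* MulAut (Multiplicative (ZMod 3 × ZMod 3)) :=
  cycHom 4 aut9_2_4 (MulEquiv.ext (by decide +kernel))

theorem b6_tof0 : TrivOrFpf b6_act0 := by
  unfold TrivOrFpf; decide +kernel

/-- Action number 1 of block `b6`. -/
def b6_act1 : Multiplicative (ZMod 4) →* MulAut (Multiplicative (ZMod 3 × ZMod 3)) :=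
  cycHom 4 aut9_2_2 (MulEquiv.ext (by decide +kernel))

theorem b6_tof1 : TrivOrFpf b6_act1 := by
  unfold TrivOrFpf; decide +kernel

/-- Action number 2 of block `b6`. -/
def b6_act2 : Multiplicative (ZMod 4) →* MulAut (Multiplicative (ZMod 7)) :=
  cycHom 4 aut7_1_2 (MulEquiv.ext (by decide +kernel))

theorem b6_tof2 : TrivOrFpf b6_act2 := by
  unfold TrivOrFpf; decide +kernel

/-- Block group `b6`, of order 2268. -/
abbrev B6 : Type := (Multiplicative (ZMod 3 × ZMod 3) × Multiplicative (ZMod 3 × ZMod 3) × Multiplicative (ZMod 7)) ⋊[(pairHom b6_act0 (pairHom b6_act1 b6_act2))] (Multiplicative (ZMod 4))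

theorem b6_profile : Profile B6 [1, 10, 81, 1144, 162, 7, 1296, 70, 567, 1204, 1134, 2268] := by
  refine profile_of_values (N := 2268) ?_ ?_ ?_
  · rw [funext (powCount_block₃ b6_act0 b6_act1 b6_act2 b6_tof0 b6_tof1 b6_tof2)]; decide +kernel
  · simp [SemidirectProduct.card, Nat.card_eq_fintype_card]
  · rw [powCount_block₃ b6_act0 b6_act1 b6_act2 b6_tof0 b6_tof1 b6_tof2]; decide +kernel

theorem b6_solvable : Group.IsSolvable B6 :=
  isSolvable_semidirect _ inferInstance inferInstance

/-- Action number 0 of block `b7`. -/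
def b7_act0 : Multiplicative (ZMod 4) →* MulAut (Multiplicative (ZMod 7 × ZMod 7)) :=
  cycHom 4 aut49_2_4 (MulEquiv.ext (by decide +kernel))

theorem b7_tof0 : TrivOrFpf b7_act0 := by
  unfold TrivOrFpf; decide +kernel

/-- Action number 1 of block `b7`. -/
def b7_act1 : Multiplicative (ZMod 4) →* MulAut (Multiplicative (ZMod 3)) :=
  cycHom 4 aut3_1_2 (MulEquiv.ext (by decide +kernel))

theorem b7_tof1 : TrivOrFpf b7_act1 := by
  unfold TrivOrFpf; decide +kernel

/-- Block group `b7`, of order 588. -/
abbrev B7 : Type := (Multiplicative (ZMod 7 × ZMod 7) × Multiplicative (ZMod 3)) ⋊[(pairHom b7_act0 b7_act1)] (Multiplicative (ZMod 4))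

theorem b7_profile : Profile B7 [1, 50, 3, 344, 150, 49, 444, 98, 147, 392, 294, 588] := by
  refine profile_of_values (N := 588) ?_ ?_ ?_
  · rw [funext (powCount_block₂ b7_act0 b7_act1 b7_tof0 b7_tof1)]; decide +kernel
  · simp [SemidirectProduct.card, Nat.card_eq_fintype_card]
  · rw [powCount_block₂ b7_act0 b7_act1 b7_tof0 b7_tof1]; decide +kernel

theorem b7_solvable : Group.IsSolvable B7 :=
  isSolvable_semidirect _ inferInstance inferInstance

/-- Action number 0 of block `b8`. -/
def b8_act0 : Multiplicative (ZMod 4) →* MulAut (Multiplicative (ZMod 3)) :=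
  cycHom 4 aut3_1_2 (MulEquiv.ext (by decide +kernel))

theorem b8_tof0 : TrivOrFpf b8_act0 := by
  unfold TrivOrFpf; decide +kernel

/-- Block group `b8`, of order 12. -/
abbrev B8 : Type := (Multiplicative (ZMod 3)) ⋊[b8_act0] (Multiplicative (ZMod 4))

theorem b8_profile : Profile B8 [1, 2, 3, 8, 6, 1, 12, 2, 3, 8, 6, 12] := by
  refine profile_of_values (N := 12) ?_ ?_ ?_
  · rw [funext (powCount_block₁ b8_act0 b8_tof0)]; decide +kernel
  · simp [SemidirectProduct.card, Nat.card_eq_fintype_card]
  · rw [powCount_block₁ b8_act0 b8_tof0]; decide +kernel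

theorem b8_solvable : Group.IsSolvable B8 :=
  isSolvable_semidirect _ inferInstance inferInstance

/-- Action number 0 of block `b9`. -/
def b9_act0 : Multiplicative (ZMod 4) →* MulAut (Multiplicative (ZMod 3)) :=
  cycHom 4 aut3_1_2 (MulEquiv.ext (by decide +kernel))

theorem b9_tof0 : TrivOrFpf b9_act0 := by
  unfold TrivOrFpf; decide +kernel

/-- Action number 1 of block `b9`. -/
def b9_act1 : Multiplicative (ZMod 4) →* MulAut (Multiplicative (ZMod 7)) :=
  cycHom 4 aut7_1_2 (MulEquiv.ext (by decide +kernel))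

theorem b9_tof1 : TrivOrFpf b9_act1 := by
  unfold TrivOrFpf; decide +kernel

/-- Block group `b9`, of order 84. -/
abbrev B9 : Type := (Multiplicative (ZMod 3) × Multiplicative (ZMod 7)) ⋊[(pairHom b9_act0 b9_act1)] (Multiplicative (ZMod 4))

theorem b9_profile : Profile B9 [1, 2, 3, 44, 6, 7, 48, 14, 21, 56, 42, 84] := by
  refine profile_of_values (N := 84) ?_ ?_ ?_
  · rw [funext (powCount_block₂ b9_act0 b9_act1 b9_tof0 b9_tof1)]; decide +kernel
  · simp [SemidirectProduct.card, Nat.card_eq_fintype_card]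
  · rw [powCount_block₂ b9_act0 b9_act1 b9_tof0 b9_tof1]; decide +kernel

theorem b9_solvable : Group.IsSolvable B9 :=
  isSolvable_semidirect _ inferInstance inferInstance

/-- Action number 0 of block `b10`. -/
def b10_act0 : Multiplicative (ZMod 4) →* MulAut (Multiplicative (ZMod 3 × ZMod 3)) :=
  cycHom 4 aut9_2_2 (MulEquiv.ext (by decide +kernel))

theorem b10_tof0 : TrivOrFpf b10_act0 := by
  unfold TrivOrFpf; decide +kernel

/-- Action number 1 of block `b10`. -/
def b10_act1 : Multiplicative (ZMod 4) →* MulAut (Multiplicative (ZMod 7)) :=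
  cycHom 4 aut7_1_2 (MulEquiv.ext (by decide +kernel))

theorem b10_tof1 : TrivOrFpf b10_act1 := by
  unfold TrivOrFpf; decide +kernel

/-- Block group `b10`, of order 252. -/
abbrev B10 : Type := (Multiplicative (ZMod 3 × ZMod 3) × Multiplicative (ZMod 7)) ⋊[(pairHom b10_act0 b10_act1)] (Multiplicative (ZMod 4))

theorem b10_profile : Profile B10 [1, 2, 9, 128, 18, 7, 144, 14, 63, 140, 126, 252] := by
  refine profile_of_values (N := 252) ?_ ?_ ?_
  · rw [funext (powCount_block₂ b10_act0 b10_act1 b10_tof0 b10_tof1)]; decide +kernel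
  · simp [SemidirectProduct.card, Nat.card_eq_fintype_card]
  · rw [powCount_block₂ b10_act0 b10_act1 b10_tof0 b10_tof1]; decide +kernel

theorem b10_solvable : Group.IsSolvable B10 :=
  isSolvable_semidirect _ inferInstance inferInstance

/-- Action number 0 of block `b11`. -/
def b11_act0 : Multiplicative (ZMod 4) →* MulAut (Multiplicative (ZMod 7)) :=
  cycHom 4 aut7_1_2 (MulEquiv.ext (by decide +kernel))

theorem b11_tof0 : TrivOrFpf b11_act0 := by
  unfold TrivOrFpf; decide +kernel

/-- Block group `b11`, of order 28. -/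
abbrev B11 : Type := (Multiplicative (ZMod 7)) ⋊[b11_act0] (Multiplicative (ZMod 4))

theorem b11_profile : Profile B11 [1, 2, 1, 16, 2, 7, 16, 14, 7, 28, 14, 28] := by
  refine profile_of_values (N := 28) ?_ ?_ ?_
  · rw [funext (powCount_block₁ b11_act0 b11_tof0)]; decide +kernel
  · simp [SemidirectProduct.card, Nat.card_eq_fintype_card]
  · rw [powCount_block₁ b11_act0 b11_tof0]; decide +kernel

theorem b11_solvable : Group.IsSolvable B11 :=
  isSolvable_semidirect _ inferInstance inferInstance

/-- Action number 0 of block `b12`. -/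
def b12_act0 : Multiplicative (ZMod 4) →* MulAut (Multiplicative (ZMod 7 × ZMod 7)) :=
  cycHom 4 aut49_2_2 (MulEquiv.ext (by decide +kernel))

theorem b12_tof0 : TrivOrFpf b12_act0 := by
  unfold TrivOrFpf; decide +kernel

/-- Block group `b12`, of order 196. -/
abbrev B12 : Type := (Multiplicative (ZMod 7 × ZMod 7)) ⋊[b12_act0] (Multiplicative (ZMod 4))

theorem b12_profile : Profile B12 [1, 2, 1, 100, 2, 49, 100, 98, 49, 196, 98, 196] := by
  refine profile_of_values (N := 196) ?_ ?_ ?_
  · rw [funext (powCount_block₁ b12_act0 b12_tof0)]; decide +kernel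
  · simp [SemidirectProduct.card, Nat.card_eq_fintype_card]
  · rw [powCount_block₁ b12_act0 b12_tof0]; decide +kernel

theorem b12_solvable : Group.IsSolvable B12 :=
  isSolvable_semidirect _ inferInstance inferInstance

/-- Action number 0 of block `b13`. -/
def b13_act0 : Multiplicative (ZMod 6) →* MulAut (Multiplicative (ZMod 7)) :=
  cycHom 6 aut7_1_6 (MulEquiv.ext (by decide +kernel))

theorem b13_tof0 : TrivOrFpf b13_act0 := by
  unfold TrivOrFpf; decide +kernel

/-- Block group `b13`, of order 42. -/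
abbrev B13 : Type := (Multiplicative (ZMod 7)) ⋊[b13_act0] (Multiplicative (ZMod 6))

theorem b13_profile : Profile B13 [1, 8, 15, 8, 36, 7, 36, 14, 21, 14, 42, 42] := by
  refine profile_of_values (N := 42) ?_ ?_ ?_
  · rw [funext (powCount_block₁ b13_act0 b13_tof0)]; decide +kernel
  · simp [SemidirectProduct.card, Nat.card_eq_fintype_card]
  · rw [powCount_block₁ b13_act0 b13_tof0]; decide +kernel

theorem b13_solvable : Group.IsSolvable B13 :=
  isSolvable_semidirect _ inferInstance inferInstance

/-- Action number 0 of block `b14`. -/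
def b14_act0 : Multiplicative (ZMod 6) →* MulAut (Multiplicative (ZMod 7)) :=
  cycHom 6 aut7_1_6 (MulEquiv.ext (by decide +kernel))

theorem b14_tof0 : TrivOrFpf b14_act0 := by
  unfold TrivOrFpf; decide +kernel

/-- Action number 1 of block `b14`. -/
def b14_act1 : Multiplicative (ZMod 6) →* MulAut (Multiplicative (ZMod 7)) :=
  cycHom 6 aut7_1_2 (MulEquiv.ext (by decide +kernel))

theorem b14_tof1 : TrivOrFpf b14_act1 := by
  unfold TrivOrFpf; decide +kernel

/-- Block group `b14`, of order 294. -/
abbrev B14 : Type := (Multiplicative (ZMod 7) × Multiplicative (ZMod 7)) ⋊[(pairHom b14_act0 b14_act1)] (Multiplicative (ZMod 6))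

theorem b14_profile : Profile B14 [1, 50, 15, 50, 162, 49, 162, 98, 147, 98, 294, 294] := by
  refine profile_of_values (N := 294) ?_ ?_ ?_
  · rw [funext (powCount_block₂ b14_act0 b14_act1 b14_tof0 b14_tof1)]; decide +kernel
  · simp [SemidirectProduct.card, Nat.card_eq_fintype_card]
  · rw [powCount_block₂ b14_act0 b14_act1 b14_tof0 b14_tof1]; decide +kernel

theorem b14_solvable : Group.IsSolvable B14 :=
  isSolvable_semidirect _ inferInstance inferInstance

/-- Action number 0 of block `b15`. -/
def b15_act0 : Multiplicative (ZMod 6) →* MulAut (Multiplicative (ZMod 7 × ZMod 7)) :=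
  cycHom 6 aut49_2_6 (MulEquiv.ext (by decide +kernel))

theorem b15_tof0 : TrivOrFpf b15_act0 := by
  unfold TrivOrFpf; decide +kernel

/-- Block group `b15`, of order 294. -/
abbrev B15 : Type := (Multiplicative (ZMod 7 × ZMod 7)) ⋊[b15_act0] (Multiplicative (ZMod 6))

theorem b15_profile : Profile B15 [1, 50, 99, 50, 246, 49, 246, 98, 147, 98, 294, 294] := by
  refine profile_of_values (N := 294) ?_ ?_ ?_
  · rw [funext (powCount_block₁ b15_act0 b15_tof0)]; decide +kernel
  · simp [SemidirectProduct.card, Nat.card_eq_fintype_card]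
  · rw [powCount_block₁ b15_act0 b15_tof0]; decide +kernel

theorem b15_solvable : Group.IsSolvable B15 :=
  isSolvable_semidirect _ inferInstance inferInstance

/-- Action number 0 of block `b16`. -/
def b16_act0 : Multiplicative (ZMod 12) →* MulAut (Multiplicative (ZMod 7 × ZMod 7)) :=
  cycHom 12 aut49_2_12 (MulEquiv.ext (by decide +kernel))

theorem b16_tof0 : TrivOrFpf b16_act0 := by
  unfold TrivOrFpf; decide +kernel

/-- Block group `b16`, of order 588. -/
abbrev B16 : Type := (Multiplicative (ZMod 7 × ZMod 7)) ⋊[b16_act0] (Multiplicative (ZMod 12))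

theorem b16_profile : Profile B16 [1, 50, 99, 148, 246, 49, 540, 98, 147, 196, 294, 588] := by
  refine profile_of_values (N := 588) ?_ ?_ ?_
  · rw [funext (powCount_block₁ b16_act0 b16_tof0)]; decide +kernel
  · simp [SemidirectProduct.card, Nat.card_eq_fintype_card]
  · rw [powCount_block₁ b16_act0 b16_tof0]; decide +kernel

theorem b16_solvable : Group.IsSolvable B16 :=
  isSolvable_semidirect _ inferInstance inferInstance

/-- Action number 0 of block `b17`. -/
def b17_act0 : Multiplicative (ZMod 12) →* MulAut (Multiplicative (ZMod 7)) :=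
  cycHom 12 aut7_1_6 (MulEquiv.ext (by decide +kernel))

theorem b17_tof0 : TrivOrFpf b17_act0 := by
  unfold TrivOrFpf; decide +kernel

/-- Block group `b17`, of order 84. -/
abbrev B17 : Type := (Multiplicative (ZMod 7)) ⋊[b17_act0] (Multiplicative (ZMod 12))

theorem b17_profile : Profile B17 [1, 2, 15, 16, 30, 7, 72, 14, 21, 28, 42, 84] := by
  refine profile_of_values (N := 84) ?_ ?_ ?_
  · rw [funext (powCount_block₁ b17_act0 b17_tof0)]; decide +kernel
  · simp [SemidirectProduct.card, Nat.card_eq_fintype_card]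
  · rw [powCount_block₁ b17_act0 b17_tof0]; decide +kernel

theorem b17_solvable : Group.IsSolvable B17 :=
  isSolvable_semidirect _ inferInstance inferInstance

/-- Action number 0 of block `b18`. -/
def b18_act0 : Multiplicative (ZMod 12) →* MulAut (Multiplicative (ZMod 7)) :=
  cycHom 12 aut7_1_6 (MulEquiv.ext (by decide +kernel))

theorem b18_tof0 : TrivOrFpf b18_act0 := by
  unfold TrivOrFpf; decide +kernel

/-- Action number 1 of block `b18`. -/
def b18_act1 : Multiplicative (ZMod 12) →* MulAut (Multiplicative (ZMod 7)) :=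
  cycHom 12 aut7_1_2 (MulEquiv.ext (by decide +kernel))

theorem b18_tof1 : TrivOrFpf b18_act1 := by
  unfold TrivOrFpf; decide +kernel

/-- Block group `b18`, of order 588. -/
abbrev B18 : Type := (Multiplicative (ZMod 7) × Multiplicative (ZMod 7)) ⋊[(pairHom b18_act0 b18_act1)] (Multiplicative (ZMod 12))

theorem b18_profile : Profile B18 [1, 2, 15, 100, 30, 49, 324, 98, 147, 196, 294, 588] := by
  refine profile_of_values (N := 588) ?_ ?_ ?_
  · rw [funext (powCount_block₂ b18_act0 b18_act1 b18_tof0 b18_tof1)]; decide +kernel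
  · simp [SemidirectProduct.card, Nat.card_eq_fintype_card]
  · rw [powCount_block₂ b18_act0 b18_act1 b18_tof0 b18_tof1]; decide +kernel

theorem b18_solvable : Group.IsSolvable B18 :=
  isSolvable_semidirect _ inferInstance inferInstance

/-- Action number 0 of block `b19`. -/
def b19_act0 : Multiplicative (ZMod 12) →* MulAut (Multiplicative (ZMod 7 × ZMod 7)) :=
  cycHom 12 aut49_2_6 (MulEquiv.ext (by decide +kernel))

theorem b19_tof0 : TrivOrFpf b19_act0 := by
  unfold TrivOrFpf; decide +kernel

/-- Block group `b19`, of order 588. -/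
abbrev B19 : Type := (Multiplicative (ZMod 7 × ZMod 7)) ⋊[b19_act0] (Multiplicative (ZMod 12))

theorem b19_profile : Profile B19 [1, 2, 99, 100, 198, 49, 492, 98, 147, 196, 294, 588] := by
  refine profile_of_values (N := 588) ?_ ?_ ?_
  · rw [funext (powCount_block₁ b19_act0 b19_tof0)]; decide +kernel
  · simp [SemidirectProduct.card, Nat.card_eq_fintype_card]
  · rw [powCount_block₁ b19_act0 b19_tof0]; decide +kernel

theorem b19_solvable : Group.IsSolvable B19 :=
  isSolvable_semidirect _ inferInstance inferInstance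

/-- Action number 0 of block `b20`. -/
def b20_act0 : Multiplicative (ZMod 2) × Multiplicative (ZMod 2) →* MulAut (Multiplicative (ZMod 3)) :=
  (cycHom 2 aut3_1_2 (MulEquiv.ext (by decide +kernel))).comp (MonoidHom.snd _ _)

theorem b20_tof0 : TrivOrFpf b20_act0 := by
  unfold TrivOrFpf; decide +kernel

/-- Action number 1 of block `b20`. -/
def b20_act1 : Multiplicative (ZMod 2) × Multiplicative (ZMod 2) →* MulAut (Multiplicative (ZMod 3)) :=
  (cycHom 2 aut3_1_2 (MulEquiv.ext (by decide +kernel))).comp (MonoidHom.fst _ _)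

theorem b20_tof1 : TrivOrFpf b20_act1 := by
  unfold TrivOrFpf; decide +kernel

/-- Action number 2 of block `b20`. -/
def b20_act2 : Multiplicative (ZMod 2) × Multiplicative (ZMod 2) →* MulAut (Multiplicative (ZMod 7)) :=
  (cycHom 2 aut7_1_2 (MulEquiv.ext (by decide +kernel))).comp ((MonoidHom.fst _ _ * MonoidHom.snd _ _))

theorem b20_tof2 : TrivOrFpf b20_act2 := by
  unfold TrivOrFpf; decide +kernel

/-- Block group `b20`, of order 252. -/
abbrev B20 : Type := (Multiplicative (ZMod 3) × Multiplicative (ZMod 3) × Multiplicative (ZMod 7)) ⋊[(pairHom b20_act0 (pairHom b20_act1 b20_act2))] (Multiplicative (ZMod 2) × Multiplicative (ZMod 2))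

theorem b20_profile : Profile B20 [1, 52, 9, 52, 144, 7, 144, 112, 63, 112, 252, 252] := by
  refine profile_of_values (N := 252) ?_ ?_ ?_
  · rw [funext (powCount_block₃ b20_act0 b20_act1 b20_act2 b20_tof0 b20_tof1 b20_tof2)]; decide +kernel
  · simp [SemidirectProduct.card, Nat.card_eq_fintype_card]
  · rw [powCount_block₃ b20_act0 b20_act1 b20_act2 b20_tof0 b20_tof1 b20_tof2]; decide +kernel

theorem b20_solvable : Group.IsSolvable B20 :=
  isSolvable_semidirect _ inferInstance inferInstance

/-- Action number 0 of block `b21`. -/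
def b21_act0 : Multiplicative (ZMod 4) →* MulAut (Multiplicative (ZMod 7 × ZMod 7)) :=
  cycHom 4 aut49_2_4 (MulEquiv.ext (by decide +kernel))

theorem b21_tof0 : TrivOrFpf b21_act0 := by
  unfold TrivOrFpf; decide +kernel

/-- Block group `b21`, of order 196. -/
abbrev B21 : Type := (Multiplicative (ZMod 7 × ZMod 7)) ⋊[b21_act0] (Multiplicative (ZMod 4))

theorem b21_profile : Profile B21 [1, 50, 1, 148, 50, 49, 148, 98, 49, 196, 98, 196] := by
  refine profile_of_values (N := 196) ?_ ?_ ?_
  · rw [funext (powCount_block₁ b21_act0 b21_tof0)]; decide +kernel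
  · simp [SemidirectProduct.card, Nat.card_eq_fintype_card]
  · rw [powCount_block₁ b21_act0 b21_tof0]; decide +kernel

theorem b21_solvable : Group.IsSolvable B21 :=
  isSolvable_semidirect _ inferInstance inferInstance

/-- Action number 0 of block `b22`. -/
def b22_act0 : Multiplicative (ZMod 3) →* MulAut (Multiplicative (ZMod 7 × ZMod 7)) :=
  cycHom 3 aut49_2_3 (MulEquiv.ext (by decide +kernel))

theorem b22_tof0 : TrivOrFpf b22_act0 := by
  unfold TrivOrFpf; decide +kernel

/-- Block group `b22`, of order 147. -/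
abbrev B22 : Type := (Multiplicative (ZMod 7 × ZMod 7)) ⋊[b22_act0] (Multiplicative (ZMod 3))

theorem b22_profile : Profile B22 [1, 1, 99, 1, 99, 49, 99, 49, 147, 49, 147, 147] := by
  refine profile_of_values (N := 147) ?_ ?_ ?_
  · rw [funext (powCount_block₁ b22_act0 b22_tof0)]; decide +kernel
  · simp [SemidirectProduct.card, Nat.card_eq_fintype_card]
  · rw [powCount_block₁ b22_act0 b22_tof0]; decide +kernel

theorem b22_solvable : Group.IsSolvable B22 :=
  isSolvable_semidirect _ inferInstance inferInstance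

/-- Action number 0 of block `b23`. -/
def b23_act0 : Multiplicative (ZMod 3) →* MulAut (Multiplicative (ZMod 2 × ZMod 2)) :=
  cycHom 3 aut4_2_3 (MulEquiv.ext (by decide +kernel))

theorem b23_tof0 : TrivOrFpf b23_act0 := by
  unfold TrivOrFpf; decide +kernel

/-- Block group `b23`, of order 12. -/
abbrev B23 : Type := (Multiplicative (ZMod 2 × ZMod 2)) ⋊[b23_act0] (Multiplicative (ZMod 3))

theorem b23_profile : Profile B23 [1, 4, 9, 4, 12, 1, 12, 4, 9, 4, 12, 12] := by
  refine profile_of_values (N := 12) ?_ ?_ ?_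
  · rw [funext (powCount_block₁ b23_act0 b23_tof0)]; decide +kernel
  · simp [SemidirectProduct.card, Nat.card_eq_fintype_card]
  · rw [powCount_block₁ b23_act0 b23_tof0]; decide +kernel

theorem b23_solvable : Group.IsSolvable B23 :=
  isSolvable_semidirect _ inferInstance inferInstance

/-- Action number 0 of block `d14`. -/
def d14_act0 : Multiplicative (ZMod 2) →* MulAut (Multiplicative (ZMod 7)) :=
  cycHom 2 aut7_1_2 (MulEquiv.ext (by decide +kernel))

theorem d14_tof0 : TrivOrFpf d14_act0 := by
  unfold TrivOrFpf; decide +kernel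

/-- Block group `d14`, of order 14. -/
abbrev D14 : Type := (Multiplicative (ZMod 7)) ⋊[d14_act0] (Multiplicative (ZMod 2))

theorem d14_profile : Profile D14 [1, 8, 1, 8, 8, 7, 8, 14, 7, 14, 14, 14] := by
  refine profile_of_values (N := 14) ?_ ?_ ?_
  · rw [funext (powCount_block₁ d14_act0 d14_tof0)]; decide +kernel
  · simp [SemidirectProduct.card, Nat.card_eq_fintype_card]
  · rw [powCount_block₁ d14_act0 d14_tof0]; decide +kernel

theorem d14_solvable : Group.IsSolvable D14 :=
  isSolvable_semidirect _ inferInstance inferInstance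

end Cfsg.Agent.H91
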