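import Cfsg.Agent.H91.OrderType.Special

/-!
A solvable and a nonsolvable group with equally many elements of each order.
-/

namespace Cfsg.Agent.H91

/-- A product of building blocks. -/
abbrev SolvSide : Type :=
    (B0) ×
    (B1) ×
    (Fin 2 → B2) ×
    (B4) ×
    (B6) ×
    (B7) ×
    (Fin 3 → B8) ×
    (Fin 4 → B11) ×
    (Fin 2 → B13) ×
    (B16) ×
    (B18) ×
    (B19) ×
    (Wr14) ×
    (AGammaL8) ×
    (SL23)

/-- The common profile. -/
theorem solvSide_profile : Profile SolvSide
    [1, 8996782080000000, 1217447820693410625, 123979922904655182430208000000, 18752262605941256906342400000, 558545864083284007, 2578840200766118983210412443435008000, 1004019065103417618726912000, 37559487975338459066021514135, 3017998846268326201192679368294400, 189043092783496800257340360986984448, 1376569792073249589073895321960334753792] := by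
  have h := (b0_profile.prod
    (b1_profile.prod
    ((b2_profile.pi 2).prod
    (b4_profile.prod
    (b6_profile.prod
    (b7_profile.prod
    ((b8_profile.pi 3).prod
    ((b11_profile.pi 4).prod
    ((b13_profile.pi 2).prod
    (b16_profile.prod
    (b18_profile.prod
    (b19_profile.prod
    (wr14_profile.prod
    (agl8_profile.prod
    sl23_profile))))))))))))))
  convert h using 1
  all_goals decide +kernel

theorem isSolvable_prod {A B : Type*} [Group A] [Group B] (hA : Group.IsSolvable A)
    (hB : Group.IsSolvable B) : Group.IsSolvable (A × B) := by
  have := hA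
  have := hB
  infer_instance

/-- The solvable side is solvable. -/
theorem solvSide_solvable : Group.IsSolvable SolvSide :=
  (isSolvable_prod b0_solvable
    (isSolvable_prod b1_solvable
    (isSolvable_prod (isSolvable_fin_pi 2 _ b2_solvable)
    (isSolvable_prod b4_solvable
    (isSolvable_prod b6_solvable
    (isSolvable_prod b7_solvable
    (isSolvable_prod (isSolvable_fin_pi 3 _ b8_solvable)
    (isSolvable_prod (isSolvable_fin_pi 4 _ b11_solvable)
    (isSolvable_prod (isSolvable_fin_pi 2 _ b13_solvable)
    (isSolvable_prod b16_solvable
    (isSolvable_prod b18_solvable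
    (isSolvable_prod b19_solvable
    (isSolvable_prod wr14_solvable
    (isSolvable_prod agl8_solvable
    sl23_solvable))))))))))))))

/-- A product of building blocks. -/
abbrev NonsolvSide : Type :=
    SL32 ×
    (Fin 2 → Multiplicative (ZMod 4)) ×
    (Fin 2 → Multiplicative (ZMod 2)) ×
    (Multiplicative (ZMod 3)) ×
    (B3) ×
    (B5) ×
    (Fin 3 → B9) ×
    (B10) ×
    (B12) ×
    (B14) ×
    (B15) ×
    (Fin 3 → B17) ×
    (B20) ×
    (DihedralGroup 4) ×
    (B21) ×
    (B22) ×
    (B23)

/-- The common profile. -/
theorem nonsolvSide_profile : Profile NonsolvSide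
    [1, 8996782080000000, 1217447820693410625, 123979922904655182430208000000, 18752262605941256906342400000, 558545864083284007, 2578840200766118983210412443435008000, 1004019065103417618726912000, 37559487975338459066021514135, 3017998846268326201192679368294400, 189043092783496800257340360986984448, 1376569792073249589073895321960334753792] := by
  have h := (sl32_profile.prod
    ((c4_profile.pi 2).prod
    ((c2_profile.pi 2).prod
    (c3_profile.prod
    (b3_profile.prod
    (b5_profile.prod
    ((b9_profile.pi 3).prod
    (b10_profile.prod
    (b12_profile.prod
    (b14_profile.prod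
    (b15_profile.prod
    ((b17_profile.pi 3).prod
    (b20_profile.prod
    (d8_profile.prod
    (b21_profile.prod
    (b22_profile.prod
    b23_profile))))))))))))))))
  convert h using 1
  all_goals decide +kernel

/-- The nonsolvable side maps onto `SL(3,2)`. -/
theorem nonsolvSide_not_solvable : ¬ Group.IsSolvable NonsolvSide := by
  intro h
  have := h
  let f : NonsolvSide →* SL32 := MonoidHom.fst SL32 _
  have hf : Function.Surjective f := fun x => ⟨(x, 1), rfl⟩
  exact sl32_not_solvable (Group.isSolvable_of_surjective hf)

end Cfsg.Agent.H91
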