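import Mathlib.GroupTheory.SemidirectProduct
import Mathlib.GroupTheory.Solvable
import Mathlib.GroupTheory.OrderOfElement
import Mathlib.Algebra.BigOperators.Fin
import Mathlib.SetTheory.Cardinal.Finite
import Mathlib.Data.Fintype.Sigma
import Mathlib.Tactic.Group

/-!
The counting functions `n ↦ #{g | g ^ n = 1}` of products and semidirect products.
-/

open Finset

namespace Cfsg.Agent.H91

/-- The number of solutions of `g ^ n = 1`. -/
noncomputable def powCount (G : Type*) [Monoid G] (n : ℕ) : ℕ := Nat.card {g : G // g ^ n = 1}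

/-- For finite types `powCount` is a filtered cardinality. -/
theorem powCount_eq_card_filter (G : Type*) [Monoid G] [Fintype G] [DecidableEq G] (n : ℕ) :
    powCount G n = (univ.filter fun g : G => g ^ n = 1).card := by
  rw [powCount, Nat.card_eq_fintype_card, Fintype.card_subtype]

/-- Solutions in a direct product. -/
theorem powCount_prod (G H : Type*) [Monoid G] [Monoid H] (n : ℕ) :
    powCount (G × H) n = powCount G n * powCount H n := by
  rw [powCount, powCount, powCount, ← Nat.card_prod]
  exact Nat.card_congr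
    { toFun := fun g => (⟨g.1.1, congrArg Prod.fst g.2⟩, ⟨g.1.2, congrArg Prod.snd g.2⟩)
      invFun := fun p => ⟨(p.1.1, p.2.1), Prod.ext p.1.2 p.2.2⟩
      left_inv := fun _ => rfl
      right_inv := fun _ => rfl }

/-- Solutions in a power. -/
theorem powCount_pi (a : ℕ) (G : Type*) [Monoid G] (n : ℕ) :
    powCount (Fin a → G) n = powCount G n ^ a := by
  rw [powCount, powCount, ← Nat.card_fin a, ← Nat.card_fun, Nat.card_fin]
  exact Nat.card_congr
    { toFun := fun g i => ⟨g.1 i, congrFun g.2 i⟩
      invFun := fun p => ⟨fun i => (p i).1, funext fun i => (p i).2⟩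
      left_inv := fun _ => rfl
      right_inv := fun _ => rfl }

/-- Finite products of solvable groups are solvable. -/
theorem isSolvable_fin_pi (a : ℕ) (G : Type*) [Group G] (h : Group.IsSolvable G) :
    Group.IsSolvable (Fin a → G) := by
  rw [Group.isSolvable_def] at h ⊢
  obtain ⟨k, hk⟩ := h
  refine ⟨k, (Subgroup.eq_bot_iff_forall _).2 fun x hx => funext fun i => ?_⟩
  have := map_derivedSeries_le_derivedSeries (Pi.evalMonoidHom (fun _ : Fin a => G) i) k
    (Subgroup.mem_map_of_mem _ hx)
  rwa [hk, Subgroup.mem_bot] at this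

/-- If every element is killed by `E`, only `n.gcd E` matters. -/
theorem powCount_gcd {G : Type*} [Monoid G] {E : ℕ} (h : ∀ g : G, g ^ E = 1) (n : ℕ) :
    powCount G n = powCount G (n.gcd E) := by
  refine Nat.card_congr (Equiv.subtypeEquivRight fun g => ⟨fun hg => ?_, fun hg => ?_⟩)
  · exact pow_gcd_eq_one.2 ⟨hg, h g⟩
  · obtain ⟨k, hk⟩ := Nat.gcd_dvd_left n E
    rw [hk, pow_mul, hg, one_pow]

/-- A group all of whose elements of a generating family are commutators inside the family is
not solvable. -/
theorem not_isSolvable_of_self_commutator {G : Type*} [Group G] {ι : Type*} (s : ι → G) (i₀ : ι)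
    (h₀ : s i₀ ≠ 1) (h : ∀ i, ∃ j k, s i = s j * s k * (s j)⁻¹ * (s k)⁻¹) :
    ¬ Group.IsSolvable G := by
  rw [Group.isSolvable_def]
  rintro ⟨n, hn⟩
  have : ∀ n i, s i ∈ derivedSeries G n := by
    intro n
    induction n with
    | zero => simp [derivedSeries_zero]
    | succ n ih =>
      intro i
      obtain ⟨j, k, hi⟩ := h i
      rw [derivedSeries_succ, hi]
      exact Subgroup.commutator_mem_commutator (ih j) (ih k)
  have h1 := this n i₀
  rw [hn, Subgroup.mem_bot] at h1
  exact h₀ h1

section Semidirect

variable {V M : Type*} [CommGroup V] [Group M]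

/-- Number of `v` with `∏_{i<n} φ (m ^ i) v = 1`. -/
noncomputable def kerCount (φ : M →* MulAut V) (m : M) (n : ℕ) : ℕ :=
  Nat.card {v : V // (∏ i ∈ range n, φ (m ^ i) v) = 1}

/-- Powers in a semidirect product with abelian kernel. -/
theorem semidirect_pow (φ : M →* MulAut V) (g : V ⋊[φ] M) (n : ℕ) :
    g ^ n = ⟨∏ i ∈ range n, φ (g.right ^ i) g.left, g.right ^ n⟩ := by
  induction n with
  | zero => rw [pow_zero, pow_zero, prod_range_zero]; rfl
  | succ n ih =>
    rw [pow_succ, ih, prod_range_succ]
    refine SemidirectProduct.ext ?_ ?_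
    · rw [SemidirectProduct.mul_left]
    · rw [SemidirectProduct.mul_right, pow_succ]

/-- Solutions in a semidirect product with abelian kernel. -/
theorem powCount_semidirect [Fintype M] [DecidableEq M] [Finite V] (φ : M →* MulAut V) (n : ℕ) :
    powCount (V ⋊[φ] M) n = ∑ m ∈ univ.filter (fun m : M => m ^ n = 1), kerCount φ m n := by
  have e : {g : V ⋊[φ] M // g ^ n = 1} ≃
      Σ m : {m : M // m ^ n = 1}, {v : V // (∏ i ∈ range n, φ ((m : M) ^ i) v) = 1} :=
    { toFun := fun g => ⟨⟨g.1.right, by
        have := congrArg SemidirectProduct.right g.2; rwa [semidirect_pow] at this⟩,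
        ⟨g.1.left, by have := congrArg SemidirectProduct.left g.2; rwa [semidirect_pow] at this⟩⟩
      invFun := fun p => ⟨⟨p.2.1, p.1.1⟩, by
        rw [semidirect_pow]; exact SemidirectProduct.ext p.2.2 p.1.2⟩
      left_inv := fun _ => rfl
      right_inv := fun _ => rfl }
  rw [powCount, Nat.card_congr e, Nat.card_sigma]
  exact (Finset.sum_subtype (univ.filter fun m : M => m ^ n = 1)
    (fun x => by simp) (fun m => kerCount φ m n)).symm

/-- `kerCount` is multiplicative over products of modules. -/
theorem kerCount_prod {U : Type*} [CommGroup U] (φ : M →* MulAut V) (ψ : M →* MulAut U)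
    (χ : M →* MulAut (V × U)) (hχ : ∀ m v u, χ m (v, u) = (φ m v, ψ m u)) (m : M) (n : ℕ) :
    kerCount χ m n = kerCount φ m n * kerCount ψ m n := by
  rw [kerCount, kerCount, kerCount, ← Nat.card_prod]
  have e : ∀ v u, (∏ i ∈ range n, χ (m ^ i) (v, u)) =
      (∏ i ∈ range n, φ (m ^ i) v, ∏ i ∈ range n, ψ (m ^ i) u) := by
    intro v u; simp only [hχ]; exact Prod.ext (map_prod (MonoidHom.fst V U) _ _) (map_prod (MonoidHom.snd V U) _ _)
  exact Nat.card_congr
    { toFun := fun g => (⟨g.1.1, by have := g.2; rw [e g.1.1 g.1.2] at this; exact congrArg Prod.fst this⟩,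
        ⟨g.1.2, by have := g.2; rw [e g.1.1 g.1.2] at this; exact congrArg Prod.snd this⟩)
      invFun := fun p => ⟨(p.1.1, p.2.1), by rw [e]; exact Prod.ext p.1.2 p.2.2⟩
      left_inv := fun _ => rfl
      right_inv := fun _ => rfl }

/-- Every element of `M` acts trivially or without nontrivial fixed points. -/
def TrivOrFpf (φ : M →* MulAut V) : Prop :=
  ∀ m : M, (∀ v, φ m v = v) ∨ ∀ v, φ m v = v → v = 1

/-- The value of `kerCount` for such actions. -/
theorem kerCount_trivOrFpf [Fintype V] [DecidableEq V] {φ : M →* MulAut V} (h : TrivOrFpf φ)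
    {m : M} {n : ℕ} (hm : m ^ n = 1) :
    kerCount φ m n = if ∀ v, φ m v = v then (univ.filter fun v : V => v ^ n = 1).card
      else Fintype.card V := by
  split_ifs with hf
  · have hi : ∀ (i : ℕ) v, φ (m ^ i) v = v := by
      intro i
      induction i with
      | zero => simp
      | succ i ih => intro v; rw [pow_succ, map_mul, MulAut.mul_apply, hf, ih]
    rw [kerCount, Nat.card_eq_fintype_card, Fintype.card_subtype]
    congr 1
    ext v
    simp only [hi, prod_const, card_range]
  · have hfp := (h m).resolve_left hf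
    rw [kerCount, ← Nat.card_eq_fintype_card]
    refine Nat.card_congr (Equiv.subtypeUnivEquiv fun v => hfp _ ?_)
    rw [map_prod]
    have e : ∀ i, φ m (φ (m ^ i) v) = φ (m ^ (i + 1)) v := fun i => by
      rw [← MulAut.mul_apply, ← map_mul, ← pow_succ']
    simp only [e]
    have h1 := prod_range_succ' (fun i => φ (m ^ i) v) n
    have h2 := prod_range_succ (fun i => φ (m ^ i) v) n
    rw [h2, hm] at h1
    simpa using h1.symm

end Semidirect

end Cfsg.Agent.H91
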