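import Cfsg.Agent.H91.OrderType.PowCount
import Mathlib.Data.ZMod.Basic
import Mathlib.Tactic.NormNum

/-!
Profiles of counting functions for groups of exponent dividing 84, and building blocks
`(abelian) ⋊ (abelian)`.
-/

open Finset

namespace Cfsg.Agent.H91

/-- The divisors of 84. -/
def divs84 : List ℕ := [1, 2, 3, 4, 6, 7, 12, 14, 21, 28, 42, 84]

/-- `G` is solvable, has exponent dividing 84, and `l` lists its `powCount` at the divisors of 84. -/
def Profile (G : Type*) [Group G] (l : List ℕ) : Prop :=
  (∀ g : G, g ^ 84 = 1) ∧ divs84.map (powCount G) = l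

/-- Pointwise product of value lists. -/
def lmul (l l' : List ℕ) : List ℕ := List.zipWith (· * ·) l l'

/-- Pointwise power of a value list. -/
def lpow (a : ℕ) (l : List ℕ) : List ℕ := l.map (· ^ a)

/-- Profiles multiply under direct products. -/
theorem Profile.prod {G H : Type*} [Group G] [Group H] {l l' : List ℕ}
    (hG : Profile G l) (hH : Profile H l') : Profile (G × H) (lmul l l') := by
  refine ⟨fun g => Prod.ext (hG.1 g.1) (hH.1 g.2), ?_⟩
  rw [← hG.2, ← hH.2, lmul, List.zipWith_map, List.zipWith_self]
  exact List.map_congr_left fun n _ => powCount_prod G H n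

/-- Profiles of powers. -/
theorem Profile.pi (a : ℕ) {G : Type*} [Group G] {l : List ℕ} (hG : Profile G l) :
    Profile (Fin a → G) (lpow a l) := by
  refine ⟨fun g => funext fun i => hG.1 (g i), ?_⟩
  rw [← hG.2, lpow, List.map_map]
  exact List.map_congr_left fun n _ => powCount_pi a G n

/-- Equal profiles give equal counts for every `n`. -/
theorem Profile.powCount_eq {G H : Type*} [Group G] [Group H] {l : List ℕ}
    (hG : Profile G l) (hH : Profile H l) (n : ℕ) : powCount G n = powCount H n := by
  rw [powCount_gcd hG.1 n, powCount_gcd hH.1 n]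
  have hmem : n.gcd 84 ∈ divs84 := by
    have h1 : n.gcd 84 ∈ Nat.divisors 84 := Nat.mem_divisors.2 ⟨Nat.gcd_dvd_right n 84, by norm_num⟩
    have h2 : ∀ d ∈ Nat.divisors 84, d ∈ divs84 := by decide +kernel
    exact h2 _ h1
  exact List.map_inj_left.1 (hG.2.trans hH.2.symm) _ hmem

/-- A profile from a count of solutions of `g ^ 84 = 1` equal to the group order. -/
theorem profile_of_values {G : Type*} [Group G] [Finite G] {l : List ℕ} {N : ℕ}
    (hl : divs84.map (powCount G) = l) (hN : Nat.card G = N) (hlast : powCount G 84 = N) :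
    Profile G l := by
  refine ⟨fun g => ?_, hl⟩
  by_contra hg
  have := Fintype.ofFinite G
  have hlt : powCount G 84 < Nat.card G := by
    classical
    rw [powCount_eq_card_filter, Nat.card_eq_fintype_card]
    exact Finset.card_lt_univ_of_notMem (x := g) (by simp [hg])
  omega

/-- A semidirect product of solvable groups is solvable. -/
theorem isSolvable_semidirect {V M : Type*} [Group V] [Group M] (φ : M →* MulAut V)
    (hV : Group.IsSolvable V) (hM : Group.IsSolvable M) : Group.IsSolvable (V ⋊[φ] M) := by
  have := hV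
  have := hM
  exact Group.isSolvable_of_ker_le_range (SemidirectProduct.inl : V →* V ⋊[φ] M)
    SemidirectProduct.rightHom SemidirectProduct.range_inl_eq_ker_rightHom.ge

/-- Semidirect products of finite groups are finite. -/
instance finiteSemidirect {V M : Type*} [Group V] [Group M] (φ : M →* MulAut V) [Finite V]
    [Finite M] : Finite (V ⋊[φ] M) :=
  Finite.of_equiv _ SemidirectProduct.equivProd.symm

/-- The homomorphism from a cyclic group determined by an element killed by `d`. -/
def cycHom (d : ℕ) [NeZero d] {X : Type*} [Monoid X] (T : X) (hT : T ^ d = 1) :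
    Multiplicative (ZMod d) →* X where
  toFun m := T ^ (Multiplicative.toAdd m).val
  map_one' := by simp [ZMod.val_zero]
  map_mul' a b := by
    rw [← pow_add, toAdd_mul, ZMod.val_add]
    conv_rhs => rw [← Nat.mod_add_div ((Multiplicative.toAdd a).val + (Multiplicative.toAdd b).val) d]
    rw [pow_add, pow_mul, hT, one_pow, mul_one]

/-- Diagonal action on a product. -/
def pairHom {M V U : Type*} [Monoid M] [CommGroup V] [CommGroup U] (φ : M →* MulAut V)
    (ψ : M →* MulAut U) : M →* MulAut (V × U) where
  toFun m := (φ m).prodCongr (ψ m)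
  map_one' := MulEquiv.ext fun x => by simp only [map_one]; rfl
  map_mul' a b := MulEquiv.ext fun x => by simp only [map_mul]; rfl

/-- The computable value of `kerCount` for actions that are trivial or fixed-point-free. -/
def cnt {V M : Type*} [CommGroup V] [Group M] [Fintype V] [DecidableEq V] (φ : M →* MulAut V)
    (m : M) (n : ℕ) : ℕ :=
  if ∀ v, φ m v = v then (univ.filter fun v : V => v ^ n = 1).card else Fintype.card V

section Blocks

variable {M V U W : Type*} [Group M] [Fintype M] [DecidableEq M]
  [CommGroup V] [Fintype V] [DecidableEq V] [CommGroup U] [Fintype U] [DecidableEq U]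
  [CommGroup W] [Fintype W] [DecidableEq W]

/-- Counts for a semidirect product with one module. -/
theorem powCount_block₁ (φ : M →* MulAut V) (h : TrivOrFpf φ) (n : ℕ) :
    powCount (V ⋊[φ] M) n = ∑ m ∈ univ.filter (fun m : M => m ^ n = 1), cnt φ m n := by
  rw [powCount_semidirect]
  exact Finset.sum_congr rfl fun m hm => kerCount_trivOrFpf h (by simpa using hm)

/-- Counts for a semidirect product with two modules. -/
theorem powCount_block₂ (φ : M →* MulAut V) (ψ : M →* MulAut U) (h : TrivOrFpf φ)
    (h' : TrivOrFpf ψ) (n : ℕ) :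
    powCount ((V × U) ⋊[pairHom φ ψ] M) n =
      ∑ m ∈ univ.filter (fun m : M => m ^ n = 1), cnt φ m n * cnt ψ m n := by
  rw [powCount_semidirect]
  refine Finset.sum_congr rfl fun m hm => ?_
  rw [kerCount_prod φ ψ _ (fun _ _ _ => rfl), kerCount_trivOrFpf h (by simpa using hm),
    kerCount_trivOrFpf h' (by simpa using hm)]
  rfl

/-- Counts for a semidirect product with three modules. -/
theorem powCount_block₃ (φ : M →* MulAut V) (ψ : M →* MulAut U) (χ : M →* MulAut W)
    (h : TrivOrFpf φ) (h' : TrivOrFpf ψ) (h'' : TrivOrFpf χ) (n : ℕ) :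
    powCount ((V × U × W) ⋊[pairHom φ (pairHom ψ χ)] M) n =
      ∑ m ∈ univ.filter (fun m : M => m ^ n = 1), cnt φ m n * (cnt ψ m n * cnt χ m n) := by
  rw [powCount_semidirect]
  refine Finset.sum_congr rfl fun m hm => ?_
  rw [kerCount_prod φ (pairHom ψ χ) _ (fun _ _ _ => rfl),
    kerCount_prod ψ χ _ (fun _ _ _ => rfl), kerCount_trivOrFpf h (by simpa using hm),
    kerCount_trivOrFpf h' (by simpa using hm), kerCount_trivOrFpf h'' (by simpa using hm)]
  rfl

end Blocks

/-- Counts in a group in which every element is killed by a member of a short list. -/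
theorem powCount_of_list {G : Type*} [Group G] [Fintype G] [DecidableEq G] (L : List ℕ)
    (hL : ∀ g : G, ∃ o ∈ L, g ^ o = 1) (n : ℕ) :
    powCount G n = (univ.filter fun g : G => ∃ o ∈ L, g ^ o = 1 ∧ g ^ n.gcd o = 1).card := by
  rw [powCount_eq_card_filter]
  congr 1
  ext g
  simp only [mem_filter, mem_univ, true_and]
  constructor
  · intro hg
    obtain ⟨o, ho, hgo⟩ := hL g
    exact ⟨o, ho, hgo, pow_gcd_eq_one.2 ⟨hg, hgo⟩⟩
  · rintro ⟨o, -, -, hg⟩
    obtain ⟨k, hk⟩ := Nat.gcd_dvd_left n o
    rw [hk, pow_mul, hg, one_pow]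

end Cfsg.Agent.H91
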