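import Cfsg.Agent.H91.OrderType.Profile
import Mathlib

/-!
Counting solutions of `g ^ n = 1` in a wreath product `H ≀ C₂`.
-/

namespace Cfsg.Agent.H91

/-- The swap action on `H × H`. -/
def swapHom (H : Type*) [Group H] : Multiplicative (ZMod 2) →* MulAut (H × H) :=
  cycHom 2 (MulEquiv.prodComm : (H × H) ≃* H × H) (MulEquiv.ext fun _ => rfl)

/-- The wreath product `H ≀ C₂`. -/
abbrev WreathTwo (H : Type*) [Group H] : Type _ := (H × H) ⋊[swapHom H] Multiplicative (ZMod 2)

variable {H : Type*} [Group H]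

theorem inl_pow (v : H × H) (n : ℕ) :
    (⟨v, 1⟩ : WreathTwo H) ^ n = ⟨v ^ n, 1⟩ :=
  (map_pow (SemidirectProduct.inl : H × H →* WreathTwo H) v n).symm

theorem swap_sq (a b : H) :
    (⟨(a, b), Multiplicative.ofAdd 1⟩ : WreathTwo H) ^ 2 = ⟨(a * b, b * a), 1⟩ := by
  rw [pow_two]; exact SemidirectProduct.ext rfl (show (Multiplicative.ofAdd 1 : Multiplicative (ZMod 2)) * Multiplicative.ofAdd 1 = 1 by decide)

/-- Solutions in the wreath product `H ≀ C₂`. -/
theorem powCount_wreathTwo [Finite H] (n : ℕ) :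
    powCount (WreathTwo H) n =
      powCount H n ^ 2 + if n % 2 = 0 then Nat.card H * powCount H (n / 2) else 0 := by
  classical
  haveI := Fintype.ofFinite H
  have hz : ∀ m : Multiplicative (ZMod 2), m = 1 ∨ m = Multiplicative.ofAdd 1 := by decide
  have hσ : (Multiplicative.ofAdd 1 : Multiplicative (ZMod 2)) ≠ 1 := by decide
  have hsplit : powCount (WreathTwo H) n = powCount (H × H) n +
      Nat.card {g : WreathTwo H // g ^ n = 1 ∧ g.right = Multiplicative.ofAdd 1} := by
    have e1 : Nat.card {g : WreathTwo H // g ^ n = 1 ∧ g.right = 1} = powCount (H × H) n :=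
      Nat.card_congr
        { toFun := fun g => ⟨g.1.left, by
            have e : g.1 = ⟨g.1.left, 1⟩ := SemidirectProduct.ext rfl g.2.2
            have hg := g.2.1
            rw [e, inl_pow] at hg
            exact congrArg SemidirectProduct.left hg⟩
          invFun := fun v => ⟨⟨v.1, 1⟩, by rw [inl_pow, v.2]; rfl, rfl⟩
          left_inv := fun g => Subtype.ext (SemidirectProduct.ext rfl g.2.2.symm)
          right_inv := fun _ => rfl }
    rw [← e1, powCount, ← Nat.card_sum]
    refine Nat.card_congr ((Equiv.subtypeEquivRight fun g => ?_).trans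
      (subtypeOrEquiv _ _ ?_))
    · constructor
      · intro hg; exact (hz g.right).imp (fun h => ⟨hg, h⟩) fun h => ⟨hg, h⟩
      · rintro (⟨hg, -⟩ | ⟨hg, -⟩) <;> exact hg
    · rw [Pi.disjoint_iff]
      intro g
      simp only [Prop.disjoint_iff]
      rintro ⟨⟨-, h1⟩, -, h2⟩
      exact hσ (h2.symm.trans h1)
  rw [hsplit, powCount_prod, pow_two]
  congr 1
  obtain ⟨j, rfl | rfl⟩ : ∃ j, n = 2 * j ∨ n = 2 * j + 1 := ⟨n / 2, by omega⟩
  · rw [if_pos (by omega), Nat.mul_div_cancel_left j two_pos, powCount, ← Nat.card_prod]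
    refine Nat.card_congr
      { toFun := fun g => (g.1.left.1, ⟨g.1.left.1 * g.1.left.2, ?_⟩)
        invFun := fun p => ⟨⟨(p.1, p.1⁻¹ * p.2.1), Multiplicative.ofAdd 1⟩, ?_, rfl⟩
        left_inv := fun g => Subtype.ext (SemidirectProduct.ext
          (Prod.ext rfl (inv_mul_cancel_left _ _)) g.2.2.symm)
        right_inv := fun p => Prod.ext rfl (Subtype.ext (mul_inv_cancel_left _ _)) }
    · have e : g.1 = ⟨(g.1.left.1, g.1.left.2), Multiplicative.ofAdd 1⟩ :=
        SemidirectProduct.ext rfl g.2.2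
      have hg := g.2.1
      rw [e, pow_mul, swap_sq, inl_pow] at hg
      exact congrArg (fun x => x.left.1) hg
    · rw [pow_mul, swap_sq, inl_pow, mul_inv_cancel_left]
      refine SemidirectProduct.ext (Prod.ext p.2.2 ?_) rfl
      have e : p.1⁻¹ * p.2.1 * p.1 = MulAut.conj p.1⁻¹ p.2.1 := by simp [mul_assoc]
      change (p.1⁻¹ * p.2.1 * p.1) ^ j = 1
      rw [e, ← map_pow, p.2.2, map_one]
  · rw [if_neg (by omega), Nat.card_eq_zero]
    refine Or.inl ⟨fun g => ?_⟩
    have e : g.1 = ⟨(g.1.left.1, g.1.left.2), Multiplicative.ofAdd 1⟩ :=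
      SemidirectProduct.ext rfl g.2.2
    have hg := g.2.1
    rw [e, pow_succ, pow_mul, swap_sq, inl_pow] at hg
    have := congrArg SemidirectProduct.right hg
    rw [SemidirectProduct.mul_right, one_mul] at this
    exact hσ this

end Cfsg.Agent.H91
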