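import Cfsg.Agent.H91.OrderType.Blocks
import Cfsg.Agent.H91.OrderType.Wreath
import Cfsg.Agent.H25.Burnside

/-!
The exceptional building blocks and the nonsolvable group `SL(3,2)`.
-/

namespace Cfsg.Agent.H91

/-- Profile of `C₂`. -/
theorem c2_profile : Profile (Multiplicative (ZMod 2)) [1, 2, 1, 2, 2, 1, 2, 2, 1, 2, 2, 2] := by
  refine profile_of_values (N := 2) ?_ ?_ ?_
  · rw [funext (powCount_eq_card_filter _)]; decide +kernel
  · simp [Nat.card_eq_fintype_card]
  · rw [powCount_eq_card_filter]; decide +kernel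

/-- Profile of `C₃`. -/
theorem c3_profile : Profile (Multiplicative (ZMod 3)) [1, 1, 3, 1, 3, 1, 3, 1, 3, 1, 3, 3] := by
  refine profile_of_values (N := 3) ?_ ?_ ?_
  · rw [funext (powCount_eq_card_filter _)]; decide +kernel
  · simp [Nat.card_eq_fintype_card]
  · rw [powCount_eq_card_filter]; decide +kernel

/-- Profile of `C₄`. -/
theorem c4_profile : Profile (Multiplicative (ZMod 4)) [1, 2, 1, 4, 2, 1, 4, 2, 1, 4, 2, 4] := by
  refine profile_of_values (N := 4) ?_ ?_ ?_
  · rw [funext (powCount_eq_card_filter _)]; decide +kernel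
  · simp [Nat.card_eq_fintype_card]
  · rw [powCount_eq_card_filter]; decide +kernel

/-- Profile of `D₈`. -/
theorem d8_profile : Profile (DihedralGroup 4) [1, 6, 1, 8, 6, 1, 8, 6, 1, 8, 6, 8] := by
  refine profile_of_values (N := 8) ?_ ?_ ?_
  · rw [funext (powCount_of_list [4] (by decide +kernel))]; decide +kernel
  · exact DihedralGroup.nat_card
  · rw [powCount_of_list [4] (by decide +kernel)]; decide +kernel

/-- `D₈` is solvable. -/
theorem d8_solvable : Group.IsSolvable (DihedralGroup 4) :=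
  Cfsg.Agent.H25.isSolvable_of_card_eq_mul_pow Nat.prime_two Nat.prime_three (a := 3) (b := 0)
    DihedralGroup.nat_card

/-- `SL(2,3)`. -/
abbrev SL23 : Type := Matrix.SpecialLinearGroup (Fin 2) (ZMod 3)

theorem sl23_list : ∀ g : SL23, ∃ o ∈ [4, 6], g ^ o = 1 := by decide +kernel

theorem sl23_card : Nat.card SL23 = 24 := by
  rw [Nat.card_eq_fintype_card]; decide +kernel

/-- Profile of `SL(2,3)`. -/
theorem sl23_profile : Profile SL23 [1, 2, 9, 8, 18, 1, 24, 2, 9, 8, 18, 24] := by
  refine profile_of_values (N := 24) ?_ sl23_card ?_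
  · rw [funext (powCount_of_list [4, 6] sl23_list)]; decide +kernel
  · rw [powCount_of_list [4, 6] sl23_list]; decide +kernel

/-- `SL(2,3)` is solvable. -/
theorem sl23_solvable : Group.IsSolvable SL23 :=
  Cfsg.Agent.H25.isSolvable_of_card_eq_mul_pow Nat.prime_two Nat.prime_three (a := 3) (b := 1)
    sl23_card

/-- Doubling as an automorphism of `C₇`. -/
def doubleHom : Multiplicative (ZMod 3) →* MulAut (Multiplicative (ZMod 7)) :=
  cycHom 3 (autOf (fun v : ZMod 7 => 2 * v) (fun v => 4 * v) (by decide +kernel) (by decide +kernel)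
    (by decide +kernel)) (MulEquiv.ext (by decide +kernel))

/-- `7 : 3`. -/
abbrev F21 : Type := Multiplicative (ZMod 7) ⋊[doubleHom] Multiplicative (ZMod 3)

/-- Elements of `7 : 3` as pairs. -/
instance f21Fintype : Fintype F21 := Fintype.ofEquiv _ SemidirectProduct.equivProd.symm

/-- Multiplication by a generator of `GF(8)`. -/
def mulX : MulAut (Multiplicative (ZMod 2 × ZMod 2 × ZMod 2)) :=
  autOf (fun v => (v.2.2, v.1 + v.2.2, v.2.1)) (fun v => (v.2.1 + v.1, v.2.2, v.1))
    (by decide +kernel) (by decide +kernel) (by decide +kernel)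

/-- The Frobenius automorphism of `GF(8)`. -/
def frob8 : MulAut (Multiplicative (ZMod 2 × ZMod 2 × ZMod 2)) :=
  autOf (fun v => (v.1, v.2.2, v.2.1 + v.2.2)) (fun v => (v.1, v.2.2 + v.2.1, v.2.1))
    (by decide +kernel) (by decide +kernel) (by decide +kernel)

/-- The semilinear action of `7 : 3` on `GF(8)`. -/
def semilinear8 : F21 →* MulAut (Multiplicative (ZMod 2 × ZMod 2 × ZMod 2)) :=
  SemidirectProduct.lift (cycHom 7 mulX (MulEquiv.ext (by decide +kernel)))
    (cycHom 3 frob8 (MulEquiv.ext (by decide +kernel)))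
    (fun g => MonoidHom.ext fun x => MulEquiv.ext (by revert g x; decide +kernel))

/-- `AΓL(1,8)`. -/
abbrev AGammaL8 : Type := Multiplicative (ZMod 2 × ZMod 2 × ZMod 2) ⋊[semilinear8] F21

/-- Elements of `AΓL(1,8)` as pairs. -/
instance aGammaL8Fintype : Fintype AGammaL8 :=
  Fintype.ofEquiv _ SemidirectProduct.equivProd.symm

theorem agl8_list : ∀ g : AGammaL8, ∃ o ∈ [6, 7], g ^ o = 1 := by decide +kernel

/-- Profile of `AΓL(1,8)`. -/
theorem agl8_profile :
    Profile AGammaL8 [1, 8, 57, 8, 120, 49, 120, 56, 105, 56, 168, 168] := by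
  refine profile_of_values (N := 168) ?_ ?_ ?_
  · rw [funext (powCount_of_list [6, 7] agl8_list)]; decide +kernel
  · rw [Nat.card_eq_fintype_card]; decide +kernel
  · rw [powCount_of_list [6, 7] agl8_list]; decide +kernel

/-- `AΓL(1,8)` is solvable. -/
theorem agl8_solvable : Group.IsSolvable AGammaL8 :=
  isSolvable_semidirect _ inferInstance (isSolvable_semidirect _ inferInstance inferInstance)

/-- `D₁₄ ≀ 2`. -/
abbrev Wr14 : Type := WreathTwo D14

theorem d14_values : divs84.map (powCount D14) = [1, 8, 1, 8, 8, 7, 8, 14, 7, 14, 14, 14] :=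
  d14_profile.2

/-- Profile of `D₁₄ ≀ 2`. -/
theorem wr14_profile : Profile Wr14 [1, 78, 1, 176, 78, 49, 176, 294, 49, 392, 294, 392] := by
  have hd : Nat.card D14 = 14 := by simp [SemidirectProduct.card, Nat.card_eq_fintype_card]
  have hv := d14_values
  simp only [divs84, List.map_cons, List.map_nil, List.cons.injEq, and_true] at hv
  obtain ⟨h1, h2, h3, h4, h6, h7, h12, h14, h21, h28, h42, h84⟩ := hv
  refine profile_of_values (N := 392) ?_ ?_ ?_
  · simp only [divs84, List.map_cons, List.map_nil, powCount_wreathTwo, hd]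
    norm_num [h1, h2, h3, h4, h6, h7, h12, h14, h21, h28, h42, h84]
  · simp [SemidirectProduct.card, Nat.card_eq_fintype_card]
  · rw [powCount_wreathTwo, hd, h84]
    norm_num [h42]

/-- `D₁₄ ≀ 2` is solvable. -/
theorem wr14_solvable : Group.IsSolvable Wr14 :=
  isSolvable_semidirect _ (by have := d14_solvable; infer_instance) inferInstance

/-- `SL(3,2)`. -/
abbrev SL32 : Type := Matrix.SpecialLinearGroup (Fin 3) (ZMod 2)

theorem sl32_list : ∀ g : SL32, ∃ o ∈ [3, 4, 7], g ^ o = 1 := by decide +kernel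

/-- Profile of `SL(3,2)`. -/
theorem sl32_profile : Profile SL32 [1, 22, 57, 64, 78, 49, 120, 70, 105, 112, 126, 168] := by
  refine profile_of_values (N := 168) ?_ ?_ ?_
  · rw [funext (powCount_of_list [3, 4, 7] sl32_list)]; decide +kernel
  · rw [Nat.card_eq_fintype_card]; decide +kernel
  · rw [powCount_of_list [3, 4, 7] sl32_list]; decide +kernel

/-- The six elementary transvections of `SL(3,2)`. -/
def transv32 (p : {p : Fin 3 × Fin 3 // p.1 ≠ p.2}) : SL32 :=
  ⟨Matrix.transvection p.1.1 p.1.2 1, Matrix.det_transvection_of_ne p.1.1 p.1.2 p.2 1⟩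

/-- `SL(3,2)` is not solvable. -/
theorem sl32_not_solvable : ¬ Group.IsSolvable SL32 :=
  not_isSolvable_of_self_commutator transv32 ⟨(0, 1), by decide⟩ (by decide +kernel)
    (by decide +kernel)

end Cfsg.Agent.H91
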